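import Mathlib

/-!
The numerical functions bounding abelian subgroups of symmetric and alternating groups.
-/

set_option autoImplicit false

namespace CfsgLib.AbelianPerm

/-- The largest order of an abelian subgroup of the symmetric group of degree `n`. -/
def symMax : ℕ → ℕ
  | 0 => 1
  | 1 => 1
  | 2 => 2
  | 3 => 3
  | 4 => 4
  | n + 5 => 3 * symMax (n + 2)

/-- The largest order of an abelian subgroup of the alternating group of degree `n`. -/
def altMax : ℕ → ℕ
  | 0 => 1
  | 1 => 1
  | 2 => 1
  | 3 => 3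
  | 4 => 4
  | 5 => 5
  | 6 => 9
  | 7 => 12
  | 8 => 16
  | n + 9 => 3 * altMax (n + 6)

theorem symMax_add {n : ℕ} (h : 2 ≤ n) : symMax (n + 3) = 3 * symMax n := by
  obtain ⟨a, rfl⟩ := Nat.exists_eq_add_of_le' h
  rw [show a + 2 + 3 = a + 5 from rfl, symMax]

theorem altMax_add {n : ℕ} (h : 6 ≤ n) : altMax (n + 3) = 3 * altMax n := by
  obtain ⟨a, rfl⟩ := Nat.exists_eq_add_of_le' h
  rw [show a + 6 + 3 = a + 9 from rfl, altMax]

/-- Induction with step three. -/
theorem induction_three {P : ℕ → Prop} (k : ℕ) (h0 : ∀ n, n < k + 3 → P n)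
    (step : ∀ n, k ≤ n → P n → P (n + 3)) : ∀ n, P n := by
  intro n
  induction n using Nat.strong_induction_on with
  | _ n ih =>
    rcases Nat.lt_or_ge n (k + 3) with h | h
    · exact h0 n h
    · have := step (n - 3) (by omega) (ih (n - 3) (by omega))
      rwa [show n - 3 + 3 = n by omega] at this

theorem symMax_pos : ∀ n, 0 < symMax n :=
  induction_three 2 (by decide) fun n h ih => by rw [symMax_add h]; omega

theorem altMax_pos : ∀ n, 0 < altMax n :=
  induction_three 6 (by decide) fun n h ih => by rw [altMax_add h]; omega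

theorem mul_symMax_le_small : ∀ m, m ≤ 4 → ∀ a, m * symMax a ≤ symMax (a + m) := by
  intro m hm
  refine induction_three 2 ?_ fun a ha ih => ?_
  · interval_cases m <;> decide
  · rw [symMax_add ha, show a + 3 + m = a + m + 3 by omega, symMax_add (by omega), Nat.mul_left_comm]
    exact Nat.mul_le_mul_left 3 ih

theorem mul_symMax_le : ∀ m a, m * symMax a ≤ symMax (a + m) := by
  refine induction_three 2 (fun m hm => mul_symMax_le_small m (by omega)) fun m hm ih a => ?_
  rw [show a + (m + 3) = a + m + 3 by omega, symMax_add (by omega)]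
  calc (m + 3) * symMax a ≤ 3 * m * symMax a := Nat.mul_le_mul_right _ (by omega)
    _ ≤ 3 * symMax (a + m) := by rw [Nat.mul_assoc]; exact Nat.mul_le_mul_left 3 (ih a)

theorem mul_altMax_le_small : ∀ m, m ≤ 8 → m % 4 ≠ 2 → ∀ a, m * altMax a ≤ altMax (a + m) := by
  intro m hm hm2
  refine induction_three 6 ?_ fun a ha ih => ?_
  · interval_cases m <;> first | omega | decide
  · rw [altMax_add ha, show a + 3 + m = a + m + 3 by omega, altMax_add (by omega), Nat.mul_left_comm]
    exact Nat.mul_le_mul_left 3 ih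

theorem mul_altMax_lt_of_ge : ∀ m, 5 ≤ m → ∀ a, (m ≠ 6 → m * altMax a ≤ altMax (a + m)) ∧
    (6 ≤ a + m → m ≠ 6 → m * altMax a < altMax (a + m)) := by
  refine induction_three 6 ?_ fun m hm ih _ a => ?_
  · intro m hm h5
    refine induction_three 6 ?_ fun a ha ih => ?_
    · interval_cases m <;> decide
    · obtain ⟨h1, h2⟩ := ih
      rw [altMax_add ha, show a + 3 + m = a + m + 3 by omega, altMax_add (by omega), Nat.mul_left_comm]
      exact ⟨fun h => Nat.mul_le_mul_left 3 (h1 h),
        fun _ h => Nat.mul_lt_mul_of_pos_left (h2 (by omega) h) (by norm_num)⟩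
  · suffices hlt : (m + 3) * altMax a < altMax (a + (m + 3)) from ⟨fun _ => hlt.le, fun _ _ => hlt⟩
    rw [show a + (m + 3) = a + m + 3 by omega, altMax_add (by omega)]
    rcases eq_or_ne m 6 with rfl | h6
    · revert a
      refine induction_three 6 (by decide) fun a ha ih => ?_
      rw [show a + 3 + 6 = a + 6 + 3 by omega, altMax_add ha, altMax_add (by omega)]
      omega
    · calc (m + 3) * altMax a < 3 * m * altMax a := by
            exact Nat.mul_lt_mul_of_pos_right (by omega) (altMax_pos a)
        _ ≤ 3 * altMax (a + m) := by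
            rw [Nat.mul_assoc]; exact Nat.mul_le_mul_left 3 ((ih (by omega) a).1 h6)

theorem mul_altMax_le {m : ℕ} (hm : m % 4 ≠ 2) (a : ℕ) : m * altMax a ≤ altMax (a + m) := by
  rcases Nat.lt_or_ge m 5 with h | h
  · exact mul_altMax_le_small m (by omega) hm a
  · exact (mul_altMax_lt_of_ge m h a).1 (by omega)

theorem altMax_lt_succ : ∀ a, 2 ≤ a → altMax a < altMax (a + 1) := by
  refine induction_three 6 (by decide) fun a ha ih _ => ?_
  rw [show a + 3 + 1 = a + 1 + 3 by omega, altMax_add ha, altMax_add (by omega)]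
  have := ih (by omega)
  omega

theorem half_mul_symMax_le : ∀ m, m % 4 = 2 → ∀ a, m / 2 * symMax a ≤ altMax (a + m) ∧
    (3 ≤ a + m → m / 2 * symMax a < altMax (a + m)) := by
  intro m hm
  have hsmall : ∀ a, symMax a ≤ altMax (a + 2) ∧ (1 ≤ a → symMax a < altMax (a + 2)) := by
    refine induction_three 4 (by decide) fun a ha ih => ?_
    rw [symMax_add (by omega), show a + 3 + 2 = a + 2 + 3 by omega, altMax_add (by omega)]
    have := ih.2 (by omega)
    omega
  intro a
  rcases eq_or_ne m 2 with rfl | hne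
  · have := hsmall a
    simp only [show 2 / 2 = 1 from rfl, Nat.one_mul]
    exact ⟨this.1, fun h => this.2 (by omega)⟩
  suffices hlt : m / 2 * symMax a < altMax (a + m) from ⟨hlt.le, fun _ => hlt⟩
  have hb : ∀ b a, b * symMax a ≤ symMax (a + b) := mul_symMax_le
  calc m / 2 * symMax a ≤ symMax (a + m / 2) := hb _ _
    _ ≤ altMax (a + m / 2 + 2) := (hsmall _).1
    _ < altMax (a + m) := by
      have hmono : ∀ b c, 2 ≤ b → b < c → altMax b < altMax c := by
        intro b c hb hbc
        induction c with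
        | zero => omega
        | succ c ih =>
          rcases Nat.lt_or_ge b c with h | h
          · exact (ih h).trans (altMax_lt_succ c (by omega))
          · rw [show b = c by omega]; exact altMax_lt_succ c (by omega)
      rcases Nat.lt_or_ge (a + m / 2 + 2) (a + m) with h | h
      · exact hmono _ _ (by omega) h
      · omega

/-- Degrees in which the largest abelian subgroups of the alternating group are products of
subgroups of degrees three and four. -/
def Good (n : ℕ) : Prop := n ≤ 1 ∨ n = 3 ∨ n = 4 ∨ 6 ≤ n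

/-- Equality in the recursion forces an orbit of length three or four. -/
theorem orbit_size_of_eq {m a : ℕ} (hm : 1 ≤ m) (hn : Good (a + m)) (hn3 : 3 ≤ a + m) :
    (m % 4 ≠ 2 → m * altMax a = altMax (a + m) →
      (m = 3 ∧ Good a) ∨ (m = 4 ∧ Good a ∧ (a + m) % 3 ≠ 0)) := by
  intro hm2 heq
  unfold Good at *
  rcases Nat.lt_or_ge m 5 with h | h
  · interval_cases m
    · have := altMax_lt_succ a (by omega); omega
    · omega
    · refine Or.inl ⟨rfl, ?_⟩
      rcases Nat.lt_or_ge a 6 with ha | ha
      · interval_cases a <;> simp_all [altMax]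
      · omega
    · refine Or.inr ⟨rfl, ?_⟩
      have h2 : ∀ a, a % 3 = 2 → 4 * altMax a < altMax (a + 4) := by
        refine induction_three 6 (by decide) fun a ha ih h => ?_
        rw [altMax_add ha, show a + 3 + 4 = a + 4 + 3 by omega, altMax_add (by omega)]
        have := ih (by omega)
        omega
      have := h2 a
      have h5 : a ≠ 5 := by rintro rfl; simp [altMax] at heq
      omega
  · have h' := (mul_altMax_lt_of_ge m h a).2
    rcases Nat.lt_or_ge (a + m) 6 with h6 | h6
    · omega
    · have := h' h6 (by omega); omega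

theorem symMax_eq_altMax : ∀ a, a % 3 ≠ 2 → symMax a = altMax a := by
  refine induction_three 6 (by decide) fun a ha ih h => ?_
  rw [symMax_add (by omega), altMax_add ha, ih (by omega)]

theorem symMax_three_mul : ∀ k, 1 ≤ k →
    symMax (3 * k) = 3 ^ k ∧ symMax (3 * k + 1) = 4 * 3 ^ (k - 1) ∧ symMax (3 * k + 2) = 2 * 3 ^ k := by
  intro k hk
  induction k, hk using Nat.le_induction with
  | base => decide
  | succ k hk ih =>
    obtain ⟨j, rfl⟩ := Nat.exists_eq_add_of_le' hk
    refine ⟨?_, ?_, ?_⟩
    · rw [show 3 * (j + 1 + 1) = 3 * (j + 1) + 3 by ring, symMax_add (by omega), ih.1, pow_succ' 3 (j + 1)]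
    · rw [show 3 * (j + 1 + 1) + 1 = 3 * (j + 1) + 1 + 3 by ring, symMax_add (by omega), ih.2.1,
        show j + 1 + 1 - 1 = j + 1 by omega, show j + 1 - 1 = j by omega]
      ring
    · rw [show 3 * (j + 1 + 1) + 2 = 3 * (j + 1) + 2 + 3 by ring, symMax_add (by omega), ih.2.2]
      ring

theorem altMax_three_mul : ∀ k, 2 ≤ k →
    altMax (3 * k) = 3 ^ k ∧ altMax (3 * k + 1) = 4 * 3 ^ (k - 1) ∧
      altMax (3 * k + 2) = 16 * 3 ^ (k - 2) := by
  intro k hk
  induction k, hk using Nat.le_induction with
  | base => decide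
  | succ k hk ih =>
    obtain ⟨j, rfl⟩ := Nat.exists_eq_add_of_le' hk
    refine ⟨?_, ?_, ?_⟩
    · rw [show 3 * (j + 2 + 1) = 3 * (j + 2) + 3 by ring, altMax_add (by omega), ih.1]
      ring
    · rw [show 3 * (j + 2 + 1) + 1 = 3 * (j + 2) + 1 + 3 by ring, altMax_add (by omega), ih.2.1,
        show j + 2 + 1 - 1 = j + 2 by omega, show j + 2 - 1 = j + 1 by omega]
      ring
    · rw [show 3 * (j + 2 + 1) + 2 = 3 * (j + 2) + 2 + 3 by ring, altMax_add (by omega), ih.2.2,
        show j + 2 + 1 - 2 = j + 1 by omega, show j + 2 - 2 = j by omega]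
      ring

end CfsgLib.AbelianPerm
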