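import Mathlib
import Cfsg.Agent.Lib.AbelianPerm.Arith

/-!
Abelian subgroups of symmetric and alternating groups: largest orders, and uniqueness up to
conjugation.
-/

set_option autoImplicit false
set_option linter.unusedSectionVars false
set_option linter.style.haveILetI false

open Equiv

namespace CfsgLib.AbelianPerm

universe u

variable {α : Type u} [Fintype α] [DecidableEq α]

/-- `A` is commutative. -/
def Comm (A : Subgroup (Perm α)) : Prop := ∀ g ∈ A, ∀ h ∈ A, g * h = h * g

/-- `A` consists of even permutations. -/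
def AllEven (A : Subgroup (Perm α)) : Prop := ∀ g ∈ A, Perm.sign g = 1

/-- The orbit of `x` under `A`, as a predicate. -/
def orb (A : Subgroup (Perm α)) (x : α) : α → Prop := fun y => ∃ g ∈ A, g x = y

noncomputable instance (A : Subgroup (Perm α)) (x : α) : DecidablePred (orb A x) := Classical.decPred _

theorem orb_stable {A : Subgroup (Perm α)} {g : Perm α} (hg : g ∈ A) (x y : α) :
    orb A x (g y) ↔ orb A x y := by
  constructor
  · rintro ⟨h, hh, e⟩
    exact ⟨g⁻¹ * h, mul_mem (inv_mem hg) hh, by simp [e]⟩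
  · rintro ⟨h, hh, rfl⟩
    exact ⟨g * h, mul_mem hg hh, rfl⟩

theorem orb_self (A : Subgroup (Perm α)) (x : α) : orb A x x := ⟨1, one_mem A, rfl⟩

/-- Restriction to the orbit. -/
noncomputable def resIn (A : Subgroup (Perm α)) (x : α) : A →* Perm {y // orb A x y} where
  toFun g := (g : Perm α).subtypePerm fun y => orb_stable g.2 x y
  map_one' := Perm.ext fun _ => rfl
  map_mul' _ _ := Perm.ext fun _ => rfl

/-- Restriction to the complement of the orbit. -/
noncomputable def resOut (A : Subgroup (Perm α)) (x : α) : A →* Perm {y // ¬ orb A x y} where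
  toFun g := (g : Perm α).subtypePerm fun y => not_congr (orb_stable g.2 x y)
  map_one' := Perm.ext fun _ => rfl
  map_mul' _ _ := Perm.ext fun _ => rfl

variable {A : Subgroup (Perm α)} {x : α}

theorem resIn_apply (g : A) (y : {y // orb A x y}) : ((resIn A x g y : {y // orb A x y}) : α) = (g : Perm α) y := rfl

theorem resOut_apply (g : A) (y : {y // ¬ orb A x y}) :
    ((resOut A x g y : {y // ¬ orb A x y}) : α) = (g : Perm α) y := rfl

theorem split_eq (g : A) : (g : Perm α) = (resIn A x g).subtypeCongr (resOut A x g) := by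
  refine Perm.ext fun y => ?_
  rw [Perm.subtypeCongr.apply]
  split_ifs <;> rfl

theorem sign_split (g : A) :
    Perm.sign (g : Perm α) = Perm.sign (resIn A x g) * Perm.sign (resOut A x g) := by
  conv_lhs => rw [split_eq (x := x) g]
  exact Perm.sign_subtypeCongr _ _

theorem eq_one_of_res {g : A} (h1 : resIn A x g = 1) (h2 : resOut A x g = 1) : g = 1 := by
  apply Subtype.ext
  rw [split_eq (x := x) g, h1, h2]
  refine Perm.ext fun y => ?_
  rw [Perm.subtypeCongr.apply]
  split_ifs <;> rfl

/-- The part of `A` fixing the orbit, on the complement. -/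
noncomputable def fixOut (A : Subgroup (Perm α)) (x : α) : Subgroup (Perm {y // ¬ orb A x y}) :=
  (resIn A x).ker.map (resOut A x)

/-- The part of `A` fixing the complement, on the orbit. -/
noncomputable def fixIn (A : Subgroup (Perm α)) (x : α) : Subgroup (Perm {y // orb A x y}) :=
  (resOut A x).ker.map (resIn A x)

theorem card_fixOut : Nat.card (fixOut A x) = Nat.card (resIn A x).ker := by
  refine (Nat.card_eq_of_bijective (fun g : (resIn A x).ker =>
    (⟨resOut A x g, ⟨g, g.2, rfl⟩⟩ : fixOut A x)) ⟨fun g h e => ?_, ?_⟩).symm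
  · have e' : resOut A x g = resOut A x h := congrArg Subtype.val e
    have := eq_one_of_res (x := x) (g := (g : A)⁻¹ * (h : A))
      (by rw [map_mul, map_inv, g.2, h.2, inv_one, one_mul]) (by rw [map_mul, map_inv, e', inv_mul_cancel])
    exact Subtype.ext (inv_mul_eq_one.1 this)
  · rintro ⟨_, g, hg, rfl⟩
    exact ⟨⟨g, hg⟩, rfl⟩

theorem card_fixIn : Nat.card (fixIn A x) = Nat.card (resOut A x).ker := by
  refine (Nat.card_eq_of_bijective (fun g : (resOut A x).ker =>
    (⟨resIn A x g, ⟨g, g.2, rfl⟩⟩ : fixIn A x)) ⟨fun g h e => ?_, ?_⟩).symm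
  · have e' : resIn A x g = resIn A x h := congrArg Subtype.val e
    have := eq_one_of_res (x := x) (g := (g : A)⁻¹ * (h : A))
      (by rw [map_mul, map_inv, e', inv_mul_cancel]) (by rw [map_mul, map_inv, g.2, h.2, inv_one, one_mul])
    exact Subtype.ext (inv_mul_eq_one.1 this)
  · rintro ⟨_, g, hg, rfl⟩
    exact ⟨⟨g, hg⟩, rfl⟩

theorem card_eq_range_mul_ker {G H : Type*} [Group G] [Group H] (f : G →* H) :
    Nat.card G = Nat.card f.range * Nat.card f.ker := by
  rw [← f.ker.card_mul_index, Subgroup.index_ker, mul_comm]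

theorem comm_map {H : Type*} [Group H] (hA : Comm A) (f : A →* H) (S : Subgroup A) :
    ∀ a ∈ S.map f, ∀ b ∈ S.map f, a * b = b * a := by
  rintro _ ⟨g, -, rfl⟩ _ ⟨h, -, rfl⟩
  rw [← map_mul, ← map_mul, show g * h = h * g from Subtype.ext (hA _ g.2 _ h.2)]

theorem comm_range {H : Type*} [Group H] (hA : Comm A) (f : A →* H) :
    ∀ a ∈ f.range, ∀ b ∈ f.range, a * b = b * a := by
  rw [MonoidHom.range_eq_map]
  exact comm_map hA f ⊤

theorem card_range_resIn (hA : Comm A) :
    Nat.card (resIn A x).range = Nat.card {y // orb A x y} := by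
  refine Nat.card_eq_of_bijective (fun r : (resIn A x).range => (r : Perm {y // orb A x y}) ⟨x, orb_self A x⟩)
    ⟨?_, ?_⟩
  · rintro ⟨_, g, rfl⟩ ⟨_, h, rfl⟩ e
    have e' : (g : Perm α) x = (h : Perm α) x := congrArg Subtype.val e
    refine Subtype.ext (Perm.ext fun y => Subtype.ext ?_)
    obtain ⟨s, hs, hy⟩ := y.2
    rw [resIn_apply, resIn_apply, ← hy, ← Perm.mul_apply, ← Perm.mul_apply, hA _ g.2 _ hs, hA _ h.2 _ hs,
      Perm.mul_apply, Perm.mul_apply, e']
  · rintro ⟨y, s, hs, hy⟩
    exact ⟨⟨_, ⟨s, hs⟩, rfl⟩, Subtype.ext hy⟩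

theorem card_eq_orbit_mul (hA : Comm A) :
    Nat.card A = Nat.card {y // orb A x y} * Nat.card (fixOut A x) := by
  rw [card_eq_range_mul_ker (resIn A x), card_range_resIn hA, card_fixOut]

theorem card_add : Nat.card {y // ¬ orb A x y} + Nat.card {y // orb A x y} = Nat.card α := by
  rw [← Nat.card_sum]
  exact Nat.card_congr ((Equiv.sumComm _ _).trans (Equiv.sumCompl _))

theorem orbit_pos : 0 < Nat.card {y // orb A x y} :=
  haveI : Nonempty {y // orb A x y} := ⟨⟨x, orb_self A x⟩⟩
  Nat.card_pos

theorem allEven_fixOut (he : AllEven A) : AllEven (fixOut A x) := by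
  rintro _ ⟨g, hg, rfl⟩
  have := sign_split (x := x) g
  rw [he _ g.2, MonoidHom.mem_ker.1 hg, map_one, one_mul] at this
  exact this.symm

theorem card_le_one_of_isEmpty [IsEmpty α] (A : Subgroup (Perm α)) : Nat.card A ≤ 1 :=
  Finite.card_le_one_iff_subsingleton.2 inferInstance

/-- The bound for symmetric groups. -/
theorem card_le_symMax : ∀ (n : ℕ) (α : Type u) [Fintype α] [DecidableEq α] (A : Subgroup (Perm α)),
    Nat.card α = n → Comm A → Nat.card A ≤ symMax n := by
  intro n
  induction n using Nat.strong_induction_on with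
  | _ n ih =>
    intro α _ _ A hn hA
    rcases Nat.eq_zero_or_pos n with rfl | hpos
    · haveI : IsEmpty α := Finite.card_eq_zero_iff.1 hn
      exact card_le_one_of_isEmpty A
    · obtain ⟨x⟩ : Nonempty α := (Finite.card_pos_iff).1 (hn ▸ hpos)
      have hadd := card_add (A := A) (x := x)
      have hm := orbit_pos (A := A) (x := x)
      rw [card_eq_orbit_mul hA (x := x)]
      refine (Nat.mul_le_mul_left _ (ih _ (by omega) _ (fixOut A x) rfl (comm_map hA _ _))).trans ?_
      rw [← hn, ← hadd]
      exact mul_symMax_le _ _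

/-- A regular group of degree `2` mod `4` has an odd element. -/
theorem exists_odd {R : Subgroup (Perm α)} (hc : Comm R) (htr : ∀ y z : α, ∃ g ∈ R, g y = z)
    (hm : Nat.card α % 4 = 2) (hR : Nat.card R = Nat.card α) : ∃ g ∈ R, Perm.sign g = -1 := by
  haveI : Fact (Nat.Prime 2) := ⟨Nat.prime_two⟩
  obtain ⟨t, ht⟩ := exists_prime_orderOf_dvd_card' (G := R) 2 (by rw [hR]; omega)
  refine ⟨t, t.2, ?_⟩
  have ho : orderOf (t : Perm α) = 2 := by rw [Subgroup.orderOf_coe, ht]
  have hfree : ∀ y, (t : Perm α) y ≠ y := by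
    intro y hy
    have : (t : Perm α) = 1 := by
      refine Perm.ext fun z => ?_
      obtain ⟨g, hg, rfl⟩ := htr y z
      rw [← Perm.mul_apply, hc _ t.2 _ hg, Perm.mul_apply, hy, Perm.one_apply]
    rw [this, orderOf_one] at ho
    omega
  obtain ⟨k, hk⟩ := Perm.cycleType_prime_order (σ := (t : Perm α)) (by rw [ho]; exact Nat.prime_two)
  have hs := Perm.sum_cycleType (t : Perm α)
  rw [hk, ho, Multiset.sum_replicate, smul_eq_mul,
    show (t : Perm α).support = Finset.univ from Finset.eq_univ_iff_forall.2 fun y => Perm.mem_support.2 (hfree y),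
    Finset.card_univ, ← Nat.card_eq_fintype_card] at hs
  rw [Perm.sign_of_cycleType, hk, ho, Multiset.sum_replicate, Multiset.card_replicate, smul_eq_mul]
  have : Odd ((k + 1) * 2 + (k + 1)) := by rw [Nat.odd_iff]; omega
  rw [this.neg_one_pow]

theorem range_resIn_transitive (hA : Comm A) :
    ∀ y z : {y // orb A x y}, ∃ g ∈ (resIn A x).range, g y = z := by
  rintro ⟨y, s, hs, rfl⟩ ⟨z, t, ht, rfl⟩
  exact ⟨_, ⟨⟨t * s⁻¹, mul_mem ht (inv_mem hs)⟩, rfl⟩, Subtype.ext (by simp [resIn_apply])⟩

theorem two_mul_fixIn_le (hA : Comm A) (he : AllEven A) (hm : Nat.card {y // orb A x y} % 4 = 2) :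
    2 * Nat.card (fixIn A x) ≤ Nat.card {y // orb A x y} := by
  obtain ⟨g, hg, hsg⟩ := exists_odd (R := (resIn A x).range) (comm_range hA _)
    (range_resIn_transitive hA) hm (card_range_resIn hA)
  have hle : fixIn A x ≤ (resIn A x).range := by
    rintro _ ⟨h, -, rfl⟩
    exact ⟨h, rfl⟩
  have hlt : fixIn A x < (resIn A x).range := by
    refine lt_of_le_of_ne hle fun e => ?_
    rw [← e] at hg
    obtain ⟨h, hh, rfl⟩ := hg
    have := sign_split (x := x) h
    rw [he _ h.2, hsg, MonoidHom.mem_ker.1 hh, map_one, mul_one] at this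
    exact absurd this (by decide)
  obtain ⟨c, hc⟩ := Subgroup.card_dvd_of_le hle
  rw [← card_range_resIn hA, hc, mul_comm 2]
  refine Nat.mul_le_mul_left _ ?_
  by_contra hlt2
  rcases Nat.lt_or_ge c 1 with h0 | h0
  · rw [show c = 0 by omega, Nat.mul_zero] at hc
    exact Nat.card_pos.ne' hc
  · exact hlt.ne (Subgroup.eq_of_le_of_card_ge hle (by rw [hc, show c = 1 by omega, Nat.mul_one]))

theorem card_eq_out_mul :
    Nat.card A = Nat.card (fixIn A x) * Nat.card (resOut A x).range := by
  rw [card_eq_range_mul_ker (resOut A x), card_fixIn, mul_comm]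

theorem card_le_half (hA : Comm A) (he : AllEven A) (hm : Nat.card {y // orb A x y} % 4 = 2) :
    Nat.card A ≤ Nat.card {y // orb A x y} / 2 * symMax (Nat.card {y // ¬ orb A x y}) := by
  rw [card_eq_out_mul (x := x)]
  refine Nat.mul_le_mul ?_ (card_le_symMax _ _ _ rfl (comm_range hA _))
  have := two_mul_fixIn_le hA he hm
  omega

/-- The bound for alternating groups. -/
theorem card_le_altMax : ∀ (n : ℕ) (α : Type u) [Fintype α] [DecidableEq α] (A : Subgroup (Perm α)),
    Nat.card α = n → Comm A → AllEven A → Nat.card A ≤ altMax n := by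
  intro n
  induction n using Nat.strong_induction_on with
  | _ n ih =>
    intro α _ _ A hn hA he
    rcases Nat.eq_zero_or_pos n with rfl | hpos
    · haveI : IsEmpty α := Finite.card_eq_zero_iff.1 hn
      exact card_le_one_of_isEmpty A
    · obtain ⟨x⟩ : Nonempty α := (Finite.card_pos_iff).1 (hn ▸ hpos)
      have hadd := card_add (A := A) (x := x)
      have hm := orbit_pos (A := A) (x := x)
      by_cases hm2 : Nat.card {y // orb A x y} % 4 = 2
      · refine (card_le_half hA he hm2).trans ?_
        rw [← hn, ← hadd]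
        exact (half_mul_symMax_le _ hm2 _).1
      · rw [card_eq_orbit_mul hA (x := x)]
        refine (Nat.mul_le_mul_left _
          (ih _ (by omega) _ (fixOut A x) rfl (comm_map hA _ _) (allEven_fixOut he))).trans ?_
        rw [← hn, ← hadd]
        exact mul_altMax_le hm2 _

theorem orbit_facts (hA : Comm A) (he : AllEven A) (hg : Good (Nat.card α)) (h3 : 3 ≤ Nat.card α)
    (hmax : Nat.card A = altMax (Nat.card α)) (x : α) :
    ((Nat.card {y // orb A x y} = 3 ∧ Good (Nat.card {y // ¬ orb A x y})) ∨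
      (Nat.card {y // orb A x y} = 4 ∧ Good (Nat.card {y // ¬ orb A x y}) ∧ Nat.card α % 3 ≠ 0)) ∧
      Nat.card (fixOut A x) = altMax (Nat.card {y // ¬ orb A x y}) := by
  have hadd := card_add (A := A) (x := x)
  have hm := orbit_pos (A := A) (x := x)
  have hm2 : Nat.card {y // orb A x y} % 4 ≠ 2 := by
    intro hm2
    have h := card_le_half (x := x) hA he hm2
    have h' := (half_mul_symMax_le _ hm2 (Nat.card {y // ¬ orb A x y})).2 (by omega)
    rw [hadd] at h'
    omega
  have hK := card_le_altMax _ _ (fixOut A x) rfl (comm_map hA _ _) (allEven_fixOut he)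
  have h1 : Nat.card A ≤ Nat.card {y // orb A x y} * altMax (Nat.card {y // ¬ orb A x y}) := by
    rw [card_eq_orbit_mul hA (x := x)]; exact Nat.mul_le_mul_left _ hK
  have h2 := mul_altMax_le hm2 (Nat.card {y // ¬ orb A x y})
  rw [hadd] at h2
  have heq : Nat.card {y // orb A x y} * altMax (Nat.card {y // ¬ orb A x y}) = altMax (Nat.card α) := by omega
  refine ⟨?_, ?_⟩
  · have := orbit_size_of_eq hm (a := Nat.card {y // ¬ orb A x y}) (by rw [hadd]; exact hg) (by omega) hm2
      (by rw [hadd]; exact heq)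
    rwa [hadd] at this
  · rw [← hmax, card_eq_orbit_mul hA (x := x)] at heq
    exact (Nat.eq_of_mul_eq_mul_left hm heq).symm

theorem exists_orbit_size : ∀ (n : ℕ) (α : Type u) [Fintype α] [DecidableEq α] (A : Subgroup (Perm α)),
    Nat.card α = n → Comm A → AllEven A → Good n → 3 ≤ n → Nat.card A = altMax n →
    ∃ x : α, Nat.card {y // orb A x y} = if n % 3 = 0 then 3 else 4 := by
  intro n
  induction n using Nat.strong_induction_on with
  | _ n ih =>
    intro α _ _ A hn hA he hg h3 hmax
    subst hn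
    obtain ⟨x⟩ : Nonempty α := (Finite.card_pos_iff).1 (by omega)
    obtain ⟨hcases, hK⟩ := orbit_facts hA he hg h3 hmax x
    rcases hcases with ⟨hm, ha⟩ | ⟨hm, ha, hne⟩
    · by_cases h0 : Nat.card α % 3 = 0
      · exact ⟨x, by rw [if_pos h0]; exact hm⟩
      have hadd := card_add (A := A) (x := x)
      have ha3 : 3 ≤ Nat.card {y // ¬ orb A x y} := by
        by_contra hlt
        have h1 : Nat.card {y // ¬ orb A x y} = 1 := by unfold Good at ha; omega
        rw [card_eq_orbit_mul hA (x := x), hK, hm, h1] at hmax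
        rw [show Nat.card α = 4 by omega] at hmax
        simp [altMax] at hmax
      obtain ⟨y, hy⟩ := ih _ (by omega) _ (fixOut A x) rfl (comm_map hA _ _) (allEven_fixOut he) ha ha3 hK
      rw [if_neg (by omega)] at hy
      refine ⟨y, ?_⟩
      rw [if_neg h0]
      obtain ⟨hc, -⟩ := orbit_facts hA he hg h3 hmax (y : α)
      have hle : Nat.card {z // orb (fixOut A x) y z} ≤ Nat.card {z // orb A (y : α) z} := by
        refine Nat.card_le_card_of_injective (fun z => ⟨(z.1 : α), ?_⟩) fun a b e => ?_
        · obtain ⟨_, ⟨g, -, rfl⟩, e⟩ := z.2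
          exact ⟨g, g.2, by rw [← e]; rfl⟩
        · exact Subtype.ext (Subtype.ext (congrArg Subtype.val e :))
      rcases hc with h | h <;> omega
    · exact ⟨x, by rw [if_neg hne]; exact hm⟩

/-- The structure at such an orbit. -/
theorem structure_at (hA : Comm A) (he : AllEven A) (hg : Good (Nat.card α)) (h3 : 3 ≤ Nat.card α)
    (hmax : Nat.card A = altMax (Nat.card α))
    (hm : Nat.card {y // orb A x y} = if Nat.card α % 3 = 0 then 3 else 4) :
    AllEven (resIn A x).range ∧
      ∀ g : Perm α, g ∈ A ↔ ∃ r ∈ (resIn A x).range, ∃ k ∈ fixOut A x, g = r.subtypeCongr k := by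
  obtain ⟨hcases, hK⟩ := orbit_facts hA he hg h3 hmax x
  have hadd := card_add (A := A) (x := x)
  set R := (resIn A x).range with hR
  have hRcard : Nat.card R = Nat.card {y // orb A x y} := card_range_resIn hA
  -- the even part of the projection to the complement is `fixOut`
  set P := (resOut A x).range with hP
  have hle : fixOut A x ≤ P := by rintro _ ⟨g, -, rfl⟩; exact ⟨g, rfl⟩
  have heven : ∀ g : A, Perm.sign (resOut A x g) = 1 → resOut A x g ∈ fixOut A x := by
    intro g hsg
    let Q : Subgroup (Perm {y // ¬ orb A x y}) := P ⊓ (Perm.sign).ker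
    have hQ := card_le_altMax _ _ Q rfl (fun a ha b hb => comm_range hA _ a ha.1 b hb.1) (fun a ha => ha.2)
    have hKQ : fixOut A x ≤ Q := fun a ha => ⟨hle ha, allEven_fixOut he a ha⟩
    rw [Subgroup.eq_of_le_of_card_ge hKQ (hK ▸ hQ)]
    exact ⟨⟨g, rfl⟩, hsg⟩
  have hReven : AllEven R := by
    rintro _ ⟨g, rfl⟩
    rcases Int.units_eq_one_or (Perm.sign (resIn A x g)) with h | h
    · exact h
    exfalso
    have hs := sign_split (x := x) g
    rw [he _ g.2, h] at hs
    have hs' : Perm.sign (resOut A x g) = -1 := by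
      rcases Int.units_eq_one_or (Perm.sign (resOut A x g)) with h' | h'
      · rw [h'] at hs; exact absurd hs (by decide)
      · exact h'
    rcases hcases with ⟨hm3, -⟩ | ⟨hm4, ha, h0⟩
    · -- a group of order three has no odd element
      have h3' : (resIn A x g) ^ 3 = 1 := by
        have h := pow_card_eq_one' (G := R) (x := ⟨_, ⟨g, rfl⟩⟩)
        rw [hRcard, hm3] at h
        simpa using congrArg Subtype.val h
      have := congrArg Perm.sign h3'
      rw [map_pow, map_one, h] at this
      exact absurd this (by decide)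
    · have hlt : fixOut A x < P := by
        refine lt_of_le_of_ne hle fun e => ?_
        have hmem : resOut A x g ∈ fixOut A x := e ▸ ⟨g, rfl⟩
        have := allEven_fixOut he _ hmem
        rw [hs'] at this
        exact absurd this (by decide)
      obtain ⟨c, hc⟩ := Subgroup.card_dvd_of_le hle
      have hPle := card_le_symMax _ _ P rfl (comm_range hA _)
      rw [symMax_eq_altMax _ (by omega), hc, hK] at hPle
      have hc1 : c = 1 := by
        have hpos := altMax_pos (Nat.card {y // ¬ orb A x y})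
        have hc0 : c ≠ 0 := by
          rintro rfl
          rw [Nat.mul_zero] at hc
          exact Nat.card_pos.ne' hc
        have : c ≤ 1 := by nlinarith
        omega
      exact hlt.ne (Subgroup.eq_of_le_of_card_ge hle (by rw [hc, hc1, Nat.mul_one]))
  refine ⟨hReven, fun g => ⟨fun h => ?_, ?_⟩⟩
  · refine ⟨resIn A x ⟨g, h⟩, ⟨_, rfl⟩, resOut A x ⟨g, h⟩, heven _ ?_, split_eq ⟨g, h⟩⟩
    have hs := sign_split (x := x) ⟨g, h⟩
    rw [he g h, hReven _ ⟨_, rfl⟩, one_mul] at hs
    exact hs.symm
  · rintro ⟨_, ⟨g₁, rfl⟩, k, hk, rfl⟩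
    have hk₁ : k * (resOut A x g₁)⁻¹ ∈ fixOut A x := by
      refine mul_mem hk (inv_mem (heven _ ?_))
      have hs := sign_split (x := x) g₁
      rw [he _ g₁.2, hReven _ ⟨_, rfl⟩, one_mul] at hs
      exact hs.symm
    obtain ⟨g₂, hg₂, e⟩ := hk₁
    have h := split_eq (x := x) (g₂ * g₁)
    rw [map_mul, map_mul, MonoidHom.mem_ker.1 hg₂, one_mul, e, inv_mul_cancel_right] at h
    exact h ▸ (g₂ * g₁).2

theorem unique_regular_even {β : Type u} [Fintype β] [DecidableEq β] (hβ : Nat.card β = 3 ∨ Nat.card β = 4)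
    (R S : Subgroup (Perm β)) (hR : Nat.card R = Nat.card β) (hS : Nat.card S = Nat.card β)
    (hRe : AllEven R) (hSe : AllEven S) : R = S := by
  have hle : ∀ T : Subgroup (Perm β), AllEven T → T ≤ alternatingGroup β := fun T h g hg => h g hg
  rcases hβ with h3 | h4
  · haveI : Nontrivial β := Finite.one_lt_card_iff_nontrivial.1 (by omega)
    have hA : Nat.card (alternatingGroup β) = 3 := by
      rw [nat_card_alternatingGroup, h3]; rfl
    rw [Subgroup.eq_of_le_of_card_ge (hle R hRe) (by omega), Subgroup.eq_of_le_of_card_ge (hle S hSe) (by omega)]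
  · have hsyl : ∀ T : Subgroup (Perm β), AllEven T → Nat.card T = Nat.card β →
        T.subgroupOf (alternatingGroup β) = alternatingGroup.kleinFour β := by
      intro T he hc
      have hcard : Nat.card (T.subgroupOf (alternatingGroup β)) =
          2 ^ (Nat.card (alternatingGroup β)).factorization 2 := by
        rw [Nat.card_congr (Subgroup.subgroupOfEquivOfLe (hle T he)).toEquiv, hc, h4]
        obtain ⟨S₀⟩ : Nonempty (Sylow 2 (alternatingGroup β)) := inferInstance
        rw [← S₀.card_eq_multiplicity]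
        exact (alternatingGroup.card_two_sylow_of_card_eq_four h4 S₀).symm
      exact alternatingGroup.two_sylow_eq_kleinFour_of_card_eq_four h4 (Sylow.ofCard _ hcard)
    ext g
    have hiff : ∀ T : Subgroup (Perm β), AllEven T → Nat.card T = Nat.card β →
        (g ∈ T ↔ ∃ h : g ∈ alternatingGroup β, (⟨g, h⟩ : alternatingGroup β) ∈ alternatingGroup.kleinFour β) := by
      intro T he hc
      rw [← hsyl T he hc]
      exact ⟨fun h => ⟨hle T he h, Subgroup.mem_subgroupOf.2 h⟩, fun ⟨_, h⟩ => Subgroup.mem_subgroupOf.1 h⟩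
    rw [hiff R hRe hR, hiff S hSe hS]

/-- Gluing two bijections along predicates. -/
def glue {β : Type u} {p : α → Prop} [DecidablePred p] {q : β → Prop} [DecidablePred q]
    (eI : {a // p a} ≃ {b // q b}) (eO : {a // ¬ p a} ≃ {b // ¬ q b}) : α ≃ β :=
  (Equiv.sumCompl p).symm.trans ((Equiv.sumCongr eI eO).trans (Equiv.sumCompl q))

theorem glue_permCongr {β : Type u} {p : α → Prop} [DecidablePred p] {q : β → Prop} [DecidablePred q]
    (eI : {a // p a} ≃ {b // q b}) (eO : {a // ¬ p a} ≃ {b // ¬ q b}) (r : Perm {a // p a})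
    (k : Perm {a // ¬ p a}) :
    (glue eI eO).permCongr (r.subtypeCongr k) = (eI.permCongr r).subtypeCongr (eO.permCongr k) := by
  refine Perm.ext fun y => ?_
  by_cases hy : q y
  · rw [Perm.subtypeCongr.left_apply _ _ hy]
    simp only [Equiv.permCongr_apply, glue, Equiv.symm_trans_apply, Equiv.trans_apply, Equiv.symm_symm]
    rw [Equiv.sumCompl_symm_apply_of_pos hy]
    simp [Equiv.sumCongr_symm, Perm.subtypeCongr.left_apply, Equiv.sumCompl_symm_apply_of_pos]
  · rw [Perm.subtypeCongr.right_apply _ _ hy]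
    simp only [Equiv.permCongr_apply, glue, Equiv.symm_trans_apply, Equiv.trans_apply, Equiv.symm_symm]
    rw [Equiv.sumCompl_symm_apply_of_neg hy]
    simp [Equiv.sumCongr_symm, Perm.subtypeCongr.right_apply, Equiv.sumCompl_symm_apply_of_neg]

theorem permCongr_mem_iff {β : Type u} [Fintype β] [DecidableEq β] (e : α ≃ β)
    (hcard : Nat.card α = 3 ∨ Nat.card α = 4) {R : Subgroup (Perm α)} {S : Subgroup (Perm β)}
    (hR : Nat.card R = Nat.card α) (hS : Nat.card S = Nat.card β) (hRe : AllEven R) (hSe : AllEven S)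
    (g : Perm α) : g ∈ R ↔ e.permCongr g ∈ S := by
  have h := unique_regular_even (β := α) hcard R (S.comap e.permCongrHom.toMonoidHom) hR ?_ hRe ?_
  · constructor
    · intro hg; rw [h] at hg; exact hg
    · intro hg; rw [h]; exact hg
  · rw [Nat.card_congr e, ← hS]
    exact Nat.card_congr (e.permCongrHom.toEquiv.subtypeEquiv fun _ => Iff.rfl)
  · intro g hg
    rw [← Perm.sign_permCongr e g]
    exact hSe _ hg

/-- Maximal abelian subgroups of alternating groups are conjugate, in good degrees. -/
theorem exists_equiv : ∀ (n : ℕ) (α β : Type u) [Fintype α] [DecidableEq α] [Fintype β] [DecidableEq β]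
    (A : Subgroup (Perm α)) (B : Subgroup (Perm β)), Nat.card α = n → Nat.card β = n → Good n →
    Comm A → AllEven A → Comm B → AllEven B → Nat.card A = altMax n → Nat.card B = altMax n →
    ∃ e : α ≃ β, ∀ g, g ∈ A ↔ e.permCongr g ∈ B := by
  intro n
  induction n using Nat.strong_induction_on with
  | _ n ih =>
    intro α β _ _ _ _ A B hα hβ hg hA hAe hB hBe hAc hBc
    rcases Nat.lt_or_ge n 3 with hn | hn
    · obtain ⟨e⟩ : Nonempty (α ≃ β) := Finite.card_eq.1 (hα.trans hβ.symm)
      haveI : Subsingleton α := Finite.card_le_one_iff_subsingleton.1 (by unfold Good at hg; omega)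
      refine ⟨e, fun g => ?_⟩
      rw [Subsingleton.elim g 1]
      refine ⟨fun _ => ?_, fun _ => one_mem A⟩
      rw [show e.permCongr (1 : Perm α) = 1 from Perm.ext fun z => by simp [Equiv.permCongr_apply]]
      exact one_mem B
    · obtain ⟨x, hx⟩ := exists_orbit_size n α A hα hA hAe hg hn hAc
      obtain ⟨y, hy⟩ := exists_orbit_size n β B hβ hB hBe hg hn hBc
      subst hα
      obtain ⟨hRA, hmemA⟩ := structure_at hA hAe hg hn hAc hx
      obtain ⟨hRB, hmemB⟩ := structure_at (α := β) hB hBe (hβ.symm ▸ hg) (by omega) (hβ.symm ▸ hBc)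
        (by rw [hβ]; exact hy)
      obtain ⟨eI⟩ : Nonempty ({a // orb A x a} ≃ {b // orb B y b}) := Finite.card_eq.1 (hx.trans hy.symm)
      have h1 := card_add (A := A) (x := x)
      have h2 := card_add (A := B) (x := y)
      have hcard : Nat.card {a // ¬ orb A x a} = Nat.card {b // ¬ orb B y b} := by
        rw [hx] at h1; rw [hy] at h2; omega
      have hpos := orbit_pos (A := A) (x := x)
      obtain ⟨hc, hK⟩ := orbit_facts hA hAe hg hn hAc x
      obtain ⟨-, hKB⟩ := orbit_facts (α := β) hB hBe (hβ.symm ▸ hg) (by omega) (hβ.symm ▸ hBc) y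
      obtain ⟨eO, heO⟩ := ih _ (by omega) _ _ (fixOut A x) (fixOut B y) rfl hcard.symm
        (by rcases hc with ⟨-, h⟩ | ⟨-, h, -⟩ <;> exact h) (comm_map hA _ _) (allEven_fixOut hAe)
        (comm_map hB _ _) (allEven_fixOut hBe) hK (hKB.trans (by rw [hcard]))
      have hI := permCongr_mem_iff eI (hc.imp (fun h => h.1) fun h => h.1)
        (card_range_resIn hA) (card_range_resIn hB) hRA hRB
      refine ⟨glue eI eO, fun g => ?_⟩
      rw [hmemA, hmemB]
      constructor
      · rintro ⟨r, hr, k, hk, rfl⟩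
        exact ⟨_, (hI r).1 hr, _, (heO k).1 hk, glue_permCongr eI eO r k⟩
      · rintro ⟨r', hr', k', hk', e⟩
        refine ⟨eI.symm.permCongr r', (hI _).2 (by rw [← Equiv.permCongr_symm, Equiv.apply_symm_apply]; exact hr'),
          eO.symm.permCongr k', (heO _).2 (by rw [← Equiv.permCongr_symm, Equiv.apply_symm_apply]; exact hk'), ?_⟩
        apply (glue eI eO).permCongr.injective
        rw [glue_permCongr, e]
        congr 1 <;> exact Perm.ext fun z => by simp [Equiv.permCongr_apply]

/-- A maximal abelian subgroup is normalised by an odd permutation. -/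
theorem exists_odd_normalizing (hg : Good (Nat.card α)) (h3 : 3 ≤ Nat.card α) (hA : Comm A) (he : AllEven A)
    (hmax : Nat.card A = altMax (Nat.card α)) :
    ∃ τ : Perm α, Perm.sign τ = -1 ∧ ∀ g, g ∈ A ↔ τ.permCongr g ∈ A := by
  obtain ⟨x, hx⟩ := exists_orbit_size _ α A rfl hA he hg h3 hmax
  obtain ⟨hR, hmem⟩ := structure_at hA he hg h3 hmax hx
  haveI : Nontrivial {y // orb A x y} :=
    Finite.one_lt_card_iff_nontrivial.1 (by rw [hx]; split_ifs <;> omega)
  obtain ⟨a, b, hab⟩ := exists_pair_ne {y // orb A x y}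
  have hI := permCongr_mem_iff (Equiv.swap a b) (by rw [hx]; split_ifs <;> simp)
    (card_range_resIn hA) (card_range_resIn hA) hR hR
  refine ⟨glue (Equiv.swap a b) (Equiv.refl _), ?_, fun g => ?_⟩
  · rw [show glue (Equiv.swap a b) (Equiv.refl _) = (Equiv.swap a b).subtypeCongr 1 from rfl,
      Perm.sign_subtypeCongr, Perm.sign_swap hab, map_one, mul_one]
  · rw [hmem, hmem]
    constructor
    · rintro ⟨r, hr, k, hk, rfl⟩
      exact ⟨_, (hI r).1 hr, k, hk, glue_permCongr _ _ r k⟩
    · rintro ⟨r', hr', k', hk', e⟩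
      refine ⟨(Equiv.swap a b).permCongr r', ?_, k', hk', ?_⟩
      · rw [hI]
        convert hr' using 1
        exact Perm.ext fun z => by simp [Equiv.permCongr_apply]
      · apply (Equiv.permCongr (glue (Equiv.swap a b) (Equiv.refl _))).injective
        rw [glue_permCongr, e]
        congr 1
        exact Perm.ext fun z => by simp [Equiv.permCongr_apply]

end CfsgLib.AbelianPerm
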