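import Mathlib
import Cfsg.Agent.Lib.AbelianPerm.Bound

/-!
Abelian subgroups of symmetric and alternating groups attaining the bounds.
-/

set_option autoImplicit false
set_option linter.unusedSectionVars false

open Equiv

namespace CfsgLib.AbelianPerm

/-- An abelian subgroup of order `c` on `n` points. -/
def SymWitness (n c : ℕ) : Prop := ∃ A : Subgroup (Perm (Fin n)), Comm A ∧ Nat.card A = c

/-- An abelian subgroup of order `c` of even permutations of `n` points. -/
def AltWitness (n c : ℕ) : Prop := ∃ A : Subgroup (Perm (Fin n)), Comm A ∧ AllEven A ∧ Nat.card A = c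

theorem sum_construction {a b : ℕ} (A : Subgroup (Perm (Fin a))) (B : Subgroup (Perm (Fin b)))
    (hA : Comm A) (hB : Comm B) :
    ∃ C : Subgroup (Perm (Fin (a + b))), Comm C ∧ Nat.card C = Nat.card A * Nat.card B ∧
      (AllEven A → AllEven B → AllEven C) := by
  let f : Perm (Fin a) × Perm (Fin b) →* Perm (Fin (a + b)) :=
    finSumFinEquiv.permCongrHom.toMonoidHom.comp (Perm.sumCongrHom (Fin a) (Fin b))
  have hf : Function.Injective f :=
    finSumFinEquiv.permCongrHom.injective.comp Perm.sumCongrHom_injective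
  refine ⟨(A.prod B).map f, ?_, ?_, ?_⟩
  · rintro _ ⟨v, hv, rfl⟩ _ ⟨w, hw, rfl⟩
    rw [← map_mul, ← map_mul]
    congr 1
    exact Prod.ext (hA _ hv.1 _ hw.1) (hB _ hv.2 _ hw.2)
  · rw [← Nat.card_congr (Subgroup.equivMapOfInjective _ f hf).toEquiv,
      Nat.card_congr (Subgroup.prodEquiv A B).toEquiv, Nat.card_prod]
  · rintro hAe hBe _ ⟨v, hv, rfl⟩
    show Perm.sign (finSumFinEquiv.permCongr (Equiv.sumCongr v.1 v.2)) = 1
    rw [Perm.sign_permCongr]
    exact (Perm.sign_sumCongr v.1 v.2).trans (by rw [hAe _ hv.1, hBe _ hv.2, one_mul])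

theorem SymWitness.add {a b c d : ℕ} (h : SymWitness a c) (h' : SymWitness b d) : SymWitness (a + b) (c * d) := by
  obtain ⟨A, hA, hc⟩ := h
  obtain ⟨B, hB, hd⟩ := h'
  obtain ⟨C, hC, hcd, -⟩ := sum_construction A B hA hB
  exact ⟨C, hC, by rw [hcd, hc, hd]⟩

theorem AltWitness.add {a b c d : ℕ} (h : AltWitness a c) (h' : AltWitness b d) : AltWitness (a + b) (c * d) := by
  obtain ⟨A, hA, hAe, hc⟩ := h
  obtain ⟨B, hB, hBe, hd⟩ := h'
  obtain ⟨C, hC, hcd, he⟩ := sum_construction A B hA hB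
  exact ⟨C, hC, he hAe hBe, by rw [hcd, hc, hd]⟩

theorem AltWitness.sym {n c : ℕ} (h : AltWitness n c) : SymWitness n c := by
  obtain ⟨A, hA, -, hc⟩ := h
  exact ⟨A, hA, hc⟩

theorem altWitness_three : AltWitness 3 3 := by
  haveI : Fact (Nat.Prime 3) := ⟨Nat.prime_three⟩
  have hc : Nat.card (alternatingGroup (Fin 3)) = 3 := by
    rw [nat_card_alternatingGroup, Nat.card_fin]; rfl
  haveI := isCyclic_of_prime_card hc
  letI := IsCyclic.commGroup (α := alternatingGroup (Fin 3))
  exact ⟨alternatingGroup (Fin 3), fun g hg h hh => congrArg Subtype.val (mul_comm (⟨g, hg⟩ : alternatingGroup (Fin 3)) ⟨h, hh⟩),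
    fun g hg => hg, hc⟩

theorem altWitness_four : AltWitness 4 4 := by
  have h4 : Nat.card (Fin 4) = 4 := Nat.card_fin 4
  have hc := alternatingGroup.kleinFour_card_of_card_eq_four h4
  haveI := alternatingGroup.kleinFour_isKleinFour h4
  refine ⟨(alternatingGroup.kleinFour (Fin 4)).map (alternatingGroup (Fin 4)).subtype, ?_, ?_, ?_⟩
  · rintro _ ⟨v, hv, rfl⟩ _ ⟨w, hw, rfl⟩
    rw [← map_mul, ← map_mul]
    congr 1
    exact congrArg Subtype.val (mul_comm_of_exponent_two IsKleinFour.exponent_two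
      (⟨v, hv⟩ : alternatingGroup.kleinFour (Fin 4)) ⟨w, hw⟩)
  · rintro _ ⟨v, -, rfl⟩
    exact v.2
  · refine Eq.trans ?_ hc
    exact (Nat.card_congr (Subgroup.equivMapOfInjective _ _ (alternatingGroup (Fin 4)).subtype_injective).toEquiv).symm

theorem symWitness_two : SymWitness 2 2 := by
  refine ⟨⊤, ?_, ?_⟩
  · intro g _ h _
    revert g h
    simp only [Subgroup.mem_top, forall_const]
    decide
  · rw [Subgroup.card_top, Nat.card_perm, Nat.card_fin]; rfl

theorem altWitness_five : AltWitness 5 5 := by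
  haveI : Fact (Nat.Prime 5) := ⟨Nat.prime_five⟩
  obtain ⟨g, hg⟩ := exists_prime_orderOf_dvd_card' (G := alternatingGroup (Fin 5)) 5
    (by rw [nat_card_alternatingGroup, Nat.card_fin]; decide)
  refine ⟨(Subgroup.zpowers g).map (alternatingGroup (Fin 5)).subtype, ?_, ?_, ?_⟩
  · rintro _ ⟨v, hv, rfl⟩ _ ⟨w, hw, rfl⟩
    rw [← map_mul, ← map_mul]
    obtain ⟨i, rfl⟩ := hv
    obtain ⟨j, rfl⟩ := hw
    congr 1
    exact zpow_mul_comm g i j
  · rintro _ ⟨v, -, rfl⟩
    exact v.2
  · rw [← Nat.card_congr (Subgroup.equivMapOfInjective _ _ (alternatingGroup (Fin 5)).subtype_injective).toEquiv,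
      Nat.card_zpowers, hg]

theorem symWitness_max : ∀ n, 2 ≤ n → SymWitness n (symMax n) := by
  refine induction_three 2 (fun n hn h => ?_) fun n h ih _ => ?_
  · interval_cases n
    · exact symWitness_two
    · exact altWitness_three.sym
    · exact altWitness_four.sym
  · rw [symMax_add h, mul_comm]
    exact (ih h).add altWitness_three.sym

theorem altWitness_max : ∀ n, 3 ≤ n → AltWitness n (altMax n) := by
  refine induction_three 6 (fun n hn h => ?_) fun n h ih _ => ?_
  · interval_cases n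
    · exact altWitness_three
    · exact altWitness_four
    · exact altWitness_five
    · exact altWitness_three.add altWitness_three
    · exact altWitness_four.add altWitness_three
    · exact altWitness_four.add altWitness_four
  · rw [altMax_add h, mul_comm]
    exact (ih (by omega)).add altWitness_three

theorem isGreatest_sym {n : ℕ} (h : 2 ≤ n) :
    IsGreatest {c : ℕ | ∃ A : Subgroup (Perm (Fin n)), IsMulCommutative A ∧ Nat.card A = c} (symMax n) := by
  refine ⟨?_, ?_⟩
  · obtain ⟨A, hA, hc⟩ := symWitness_max n h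
    exact ⟨A, ⟨⟨fun a b => Subtype.ext (hA _ a.2 _ b.2)⟩⟩, hc⟩
  · rintro c ⟨A, hA, rfl⟩
    exact card_le_symMax n (Fin n) A (Nat.card_fin n)
      fun g hg h hh => congrArg Subtype.val (hA.is_comm.comm (⟨g, hg⟩ : A) ⟨h, hh⟩)

theorem comm_map_alt {n : ℕ} (A : Subgroup (alternatingGroup (Fin n))) (hA : IsMulCommutative A) :
    Comm (A.map (alternatingGroup (Fin n)).subtype) ∧ AllEven (A.map (alternatingGroup (Fin n)).subtype) ∧
      Nat.card (A.map (alternatingGroup (Fin n)).subtype) = Nat.card A := by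
  refine ⟨?_, ?_, (Nat.card_congr (Subgroup.equivMapOfInjective _ _ (alternatingGroup (Fin n)).subtype_injective).toEquiv).symm⟩
  · rintro _ ⟨v, hv, rfl⟩ _ ⟨w, hw, rfl⟩
    rw [← map_mul, ← map_mul]
    congr 1
    exact congrArg Subtype.val (hA.is_comm.comm (⟨v, hv⟩ : A) ⟨w, hw⟩)
  · rintro _ ⟨v, -, rfl⟩
    exact v.2

theorem isGreatest_alt {n : ℕ} (h : 3 ≤ n) :
    IsGreatest {c : ℕ | ∃ A : Subgroup (alternatingGroup (Fin n)), IsMulCommutative A ∧ Nat.card A = c}
      (altMax n) := by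
  refine ⟨?_, ?_⟩
  · obtain ⟨A, hA, he, hc⟩ := altWitness_max n h
    refine ⟨A.subgroupOf (alternatingGroup (Fin n)), ⟨⟨fun a b => Subtype.ext (Subtype.ext (hA _ a.2 _ b.2))⟩⟩, ?_⟩
    rw [← hc]
    exact Nat.card_congr (Subgroup.subgroupOfEquivOfLe (fun g hg => he g hg)).toEquiv
  · rintro c ⟨A, hA, rfl⟩
    obtain ⟨h1, h2, h3⟩ := comm_map_alt A hA
    rw [← h3]
    exact card_le_altMax n (Fin n) _ (Nat.card_fin n) h1 h2

end CfsgLib.AbelianPerm
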